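import Cfsg.Agent.H649.StabBlock
import Cfsg.Agent.H646.NormalSupport
import Cfsg.Agent.S0909
import Cfsg.Agent.S0912
import Cfsg.Agent.S0913
import Cfsg.Agent.Lib.Cores
import Cfsg.Agent.H649.LocalDefect
set_option linter.all false

-- part: H649/SubBlock
section
/-!
# The block of a subgroup of the stabilizer of a Brauer pair

`(Q, f)` a Brauer pair of `G`, `T` a subgroup of the stabilizer of `f` in `N_G(Q)` containing
`Q C_G(Q)` (`IsSub Q f T`); same results as in `StabBlock`.

* `exists_block_of_isSub`: the idempotent of `f` is a block idempotent of `T`;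
* `isNormalSubpair_up_iff_sub`: the Brauer pairs of this block of `T` on subgroups containing `Q`
  are the Brauer pairs of `G` normally above `(Q, f)`.
-/

set_option autoImplicit false
set_option linter.unusedSectionVars false

open Cfsg

namespace Cfsg.Agent.H649

open Cfsg.Agent.H644 Cfsg.Agent.Blocks.Local Cfsg.Agent.H651
open Cfsg.Agent.Blocks.Basic (isPBlock_nonempty isPBlock_blockOf)
open Cfsg.Agent.Blocks.Fong (cj cj_apply lyingOver mem_lyingOver)
open Cfsg.Agent.H646.NormalSupport (underSet mem_underSet lyingOver_underSet)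

universe u

variable {p : ℕ} [Fact p.Prime] {M : Ideal AlgInt} {G : Type u} [Group G]

/-- `T` is a subgroup of the stabilizer of `f` in `N_G(Q)` containing `Q` and `C_G(Q)`. -/
structure IsSub (Q : Subgroup G) (f : Set (IrrCharacter (Subgroup.centralizer (Q : Set G))))
    (T : Subgroup G) : Prop where
  le : Q ≤ T
  centralizer_le : Subgroup.centralizer (Q : Set G) ≤ T
  stab : ∀ y ∈ T, y ∈ Subgroup.normalizer (Q : Set G) ∧
      StabilizesBlock (Subgroup.centralizer (Q : Set G)) f y

section Stab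

variable {Q : Subgroup G} {f : Set (IrrCharacter (Subgroup.centralizer (Q : Set G)))}
  {T : Subgroup G}

theorem IsStab.isSub (h : IsStab Q f T) : IsSub Q f T :=
  ⟨h.le, h.centralizer_le, fun y hy => (h y).1 hy⟩

/-- `Q C_G(Q)` is such a subgroup. -/
theorem isSub_sup (Q : Subgroup G) (f : Set (IrrCharacter (Subgroup.centralizer (Q : Set G))))
    (hf : IsPBlock M f) [M.IsPrime] : IsSub Q f (Q ⊔ Subgroup.centralizer (Q : Set G)) where
  le := le_sup_left
  centralizer_le := le_sup_right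
  stab := by
    intro y hy
    have h1 : Q ⊔ Subgroup.centralizer (Q : Set G) ≤ idxStab ⟨Q, f⟩ :=
      sup_le (le_idxStab hf) (centralizer_le_idxStab hf)
    exact (conjIdx_eq_iff hf y).1 (h1 hy)

theorem IsSub.le_normalizer (h : IsSub Q f T) : T ≤ Subgroup.normalizer (Q : Set G) :=
  fun x hx => (h.stab x hx).1

theorem IsSub.normal_subgroupOf (h : IsSub Q f T) : (Q.subgroupOf T).Normal := by
  refine ⟨fun x hx t => ?_⟩
  rw [Subgroup.mem_subgroupOf] at hx ⊢
  exact (Subgroup.mem_normalizer_iff.1 (h.le_normalizer t.2) _).1 hx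

theorem IsSub.normal_centralizer (h : IsSub Q f T) :
    ((Subgroup.centralizer (Q : Set G)).subgroupOf T).Normal := by
  refine ⟨fun x hx t => ?_⟩
  rw [Subgroup.mem_subgroupOf] at hx ⊢
  exact (Subgroup.mem_normalizer_iff.1
    (mem_normalizer_centralizer (h.le_normalizer t.2)) _).1 hx

end Stab

section Exists

variable [Finite G] {Q : Subgroup G}
  {f : Set (IrrCharacter (Subgroup.centralizer (Q : Set G)))} {T : Subgroup G}

/-- The characters of the stabilizer `T` over `f`. -/
theorem lyingOver_of_isSub (hT : IsSub Q f T) (N : Subgroup T) [N.Normal] [Fintype T]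
    [Fintype N] (i : N ≃* Subgroup.centralizer (Q : Set G))
    (hN : ∀ t : T, t ∈ N ↔ (t : G) ∈ Subgroup.centralizer (Q : Set G))
    (hi : ∀ n : N, ((i n : Subgroup.centralizer (Q : Set G)) : G) = ((n : T) : G)) :
    (∀ (g : T) (θ : IrrCharacter N), θ ∈ blkMap i.symm f → cj N g θ ∈ blkMap i.symm f) ∧
    (∀ χ ∈ lyingOver N (blkMap i.symm f), ∀ ψ : IrrCharacter N,
      classInner (fun n : N => (χ : T → ℂ) n) (ψ : N → ℂ) ≠ 0 → ψ ∈ blkMap i.symm f) ∧
    ∀ t : T, blockCoeff (lyingOver N (blkMap i.symm f)) t =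
      subgroupBlockCoeff (Subgroup.centralizer (Q : Set G)) f (t : G) := by
  classical
  let b : Set (IrrCharacter N) := blkMap i.symm f
  have hinv : ∀ (g : T) (θ : IrrCharacter N), θ ∈ b → cj N g θ ∈ b := by
    rintro g _ ⟨χ, hχ, rfl⟩
    obtain ⟨-, -, h⟩ := hT.stab (g⁻¹ : T) (g⁻¹).2
    obtain ⟨χ', hχ', h'⟩ := h χ hχ
    refine ⟨χ', hχ', ?_⟩
    apply Subtype.ext
    funext n
    rw [cj_apply, irrMap_apply, irrMap_apply]
    apply h' (i (MulAut.conjNormal g n)) (i n)
    rw [hi, hi, MulAut.conjNormal_apply]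
    push_cast
    group
  have hcl : ∀ χ ∈ lyingOver N b, ∀ ψ : IrrCharacter N,
      classInner (fun n : N => (χ : T → ℂ) n) (ψ : N → ℂ) ≠ 0 → ψ ∈ b := by
    rintro χ ⟨θ, hθ, hne⟩ ψ hψ
    obtain ⟨g, hg⟩ := Cfsg.Agent.Characters.Clifford.exists_conj_of_constituents N χ.2 θ.2 ψ.2
      hne hψ
    have h1 : ψ = cj N g θ := Subtype.ext hg
    rw [h1]
    exact hinv g θ hθ
  have hcoef : ∀ t : T, blockCoeff (lyingOver N b) t =
      subgroupBlockCoeff (Subgroup.centralizer (Q : Set G)) f (t : G) := by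
    intro t
    rw [Cfsg.Agent.Blocks.Fong.blockCoeff_lyingOver N b hinv hcl t]
    by_cases ht : t ∈ N
    · rw [dif_pos ht, subgroupBlockCoeff_of_mem _ _ ((hN t).1 ht),
        blockCoeff_blkMap' i.symm f ⟨t, ht⟩]
      congr 1
      exact Subtype.ext (hi ⟨t, ht⟩)
    · rw [dif_neg ht, subgroupBlockCoeff_of_notMem _ _ (fun h => ht ((hN t).2 h))]
  exact ⟨hinv, hcl, hcoef⟩

/-- The idempotent of `f` is a block idempotent of the stabilizer `T` of `f` in `N_G(Q)`. -/
theorem exists_block_of_isSub (hM : IsPModular p M) (hQ : IsPGroup p Q) (hf : IsPBlock M f)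
    (hT : IsSub Q f T) : ∃ F : Set (IrrCharacter T), IsPBlock M F ∧
      ∀ t : T, blockCoeff F t =
        subgroupBlockCoeff (Subgroup.centralizer (Q : Set G)) f (t : G) := by
  classical
  have hp : M.IsPrime := isPrime_of_isPModular hM
  have hnor : ((Subgroup.centralizer (Q : Set G)).subgroupOf T).Normal := hT.normal_centralizer
  have hQn : (Q.subgroupOf T).Normal := hT.normal_subgroupOf
  have : Fintype T := Fintype.ofFinite T
  have : Fintype ((Subgroup.centralizer (Q : Set G)).subgroupOf T) := Fintype.ofFinite _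
  have hQT : IsPGroup p (Q.subgroupOf T) :=
    hQ.comap_of_injective T.subtype (Subgroup.subtype_injective T)
  set N : Subgroup T := (Subgroup.centralizer (Q : Set G)).subgroupOf T with hN
  obtain ⟨hinv, hcl, hcoef⟩ := lyingOver_of_isSub hT N
    (Subgroup.subgroupOfEquivOfLe hT.centralizer_le) (fun _ => Iff.rfl) (fun _ => rfl)
  set b : Set (IrrCharacter N) := blkMap (Subgroup.subgroupOfEquivOfLe hT.centralizer_le).symm f
    with hbdef
  have hb : IsPBlock M b := isPBlock_blkMap hf
  refine ⟨lyingOver N b, ?_, hcoef⟩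
  -- nonempty
  have hne : (lyingOver N b).Nonempty := by
    by_contra hcon
    rw [Set.not_nonempty_iff_eq_empty] at hcon
    have h1 : f = ∅ := by
      apply eq_of_blockCoeff
      intro c
      have h2 := hcoef ⟨(c : G), hT.centralizer_le c.2⟩
      rw [subgroupBlockCoeff_coe, hcon] at h2
      rw [← h2]
      simp [blockCoeff]
    obtain ⟨ξ, hξ⟩ := isPBlock_nonempty hf
    rw [h1] at hξ
    exact hξ
  obtain ⟨χ₀, hχ₀⟩ := hne
  have hF : IsPBlock M (blockOf M (χ₀ : T → ℂ)) := ⟨χ₀, rfl⟩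
  have hsub : blockOf M (χ₀ : T → ℂ) ⊆ lyingOver N b := by
    apply Cfsg.Agent.S0909.result p M hM _ _ χ₀ hχ₀
    intro t
    rw [Cfsg.Agent.Blocks.Fong.blockCoeff_lyingOver N b hinv hcl t]
    split_ifs with ht
    · exact Cfsg.Agent.S0913.result p M hM b hb ⟨t, ht⟩
    · exact Cfsg.Agent.Blocks.Local.memLocalRing_zero
  have h1 := lyingOver_underSet hM hF (Q.subgroupOf T) hQT N (centralizer_subgroupOf_of_le hT.le)
  have h2 : underSet N (blockOf M (χ₀ : T → ℂ)) = b := by
    have h3 : underSet N (blockOf M (χ₀ : T → ℂ)) ⊆ b := by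
      rintro θ ⟨χ, hχ, h⟩
      exact hcl χ (hsub hχ) θ h
    refine h3.antisymm ?_
    obtain ⟨θ, hθ⟩ := Cfsg.Agent.Blocks.Fong.exists_constituent N χ₀
    have h4 : θ ∈ underSet N (blockOf M (χ₀ : T → ℂ)) := ⟨χ₀, Cfsg.Agent.Blocks.Basic.mem_blockOf_self χ₀, hθ⟩
    have h5 : blockOf M (θ : N → ℂ) ⊆ underSet N (blockOf M (χ₀ : T → ℂ)) := by
      apply Cfsg.Agent.S0909.result p M hM _ _ θ h4
      intro n
      have h6 := Cfsg.Agent.H646.NormalSupport.blockCoeff_eq hM hF (Q.subgroupOf T) hQT N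
        (centralizer_subgroupOf_of_le hT.le) (n : T)
      rw [dif_pos n.2] at h6
      change MemLocalRing M (blockCoeff _ (⟨(n : T), n.2⟩ : N))
      rw [← h6]
      exact Cfsg.Agent.S0913.result p M hM _ hF _
    have h6 : b = blockOf M (θ : N → ℂ) :=
      Cfsg.Agent.Blocks.Fong.isPBlock_eq_blockOf hp hb (h3 h4)
    rw [h6]
    exact h5
  rw [h2] at h1
  rw [h1]
  exact hF

/-- The constituents on `C_G(Q)` of a member of the block of the stabilizer lie in `f`. -/
theorem mem_of_constituent_sub [Fintype (Subgroup.centralizer (Q : Set G))] (hT : IsSub Q f T)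
    {F : Set (IrrCharacter T)}
    (hFc : ∀ t : T, blockCoeff F t =
      subgroupBlockCoeff (Subgroup.centralizer (Q : Set G)) f (t : G))
    {χ : IrrCharacter T} (hχ : χ ∈ F) {θ : IrrCharacter (Subgroup.centralizer (Q : Set G))}
    (h : classInner (fun c : Subgroup.centralizer (Q : Set G) =>
      (χ : T → ℂ) ⟨(c : G), hT.centralizer_le c.2⟩) (θ : _ → ℂ) ≠ 0) : θ ∈ f := by
  classical
  have hnor : ((Subgroup.centralizer (Q : Set G)).subgroupOf T).Normal := hT.normal_centralizer
  have : Fintype T := Fintype.ofFinite T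
  have : Fintype ((Subgroup.centralizer (Q : Set G)).subgroupOf T) := Fintype.ofFinite _
  obtain ⟨hinv, hcl, hcoef⟩ := lyingOver_of_isSub hT
    ((Subgroup.centralizer (Q : Set G)).subgroupOf T)
    (Subgroup.subgroupOfEquivOfLe hT.centralizer_le) (fun _ => Iff.rfl) (fun _ => rfl)
  have h1 : F = lyingOver ((Subgroup.centralizer (Q : Set G)).subgroupOf T)
      (blkMap (Subgroup.subgroupOfEquivOfLe hT.centralizer_le).symm f) :=
    eq_of_blockCoeff fun t => by rw [hFc, hcoef]
  rw [h1] at hχ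
  have h2 := hcl χ hχ (irrMap (Subgroup.subgroupOfEquivOfLe hT.centralizer_le).symm θ) (by
    rw [← Cfsg.Agent.Characters.Clifford.classInner_comp_mulEquiv
      (Subgroup.subgroupOfEquivOfLe hT.centralizer_le).symm]
    convert h using 2
    all_goals
      funext c
      first
        | rfl
        | exact irrMap_apply' (Subgroup.subgroupOfEquivOfLe hT.centralizer_le).symm θ c)
  rwa [irrMap_mem_blkMap] at h2

end Exists

section Up

variable {Q : Subgroup G} {f : Set (IrrCharacter (Subgroup.centralizer (Q : Set G)))}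
  {T : Subgroup G}

theorem IsSub.centralizer_map_le (hT : IsSub Q f T) {R : Subgroup T}
    (hQR : Q ≤ R.map T.subtype) :
    Subgroup.centralizer ((R.map T.subtype : Subgroup G) : Set G) ≤ T :=
  (Subgroup.centralizer_le hQR).trans hT.centralizer_le

/-- The Brauer pairs of the block of the stabilizer `T` on subgroups containing `Q` are the Brauer
pairs of `G` normally above `(Q, f)`. -/
theorem isNormalSubpair_up_iff_sub (hQ : IsPGroup p Q) (hf : IsPBlock M f) (hT : IsSub Q f T)
    {F : Set (IrrCharacter T)} (hF : IsPBlock M F)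
    (hFc : ∀ t : T, blockCoeff F t =
      subgroupBlockCoeff (Subgroup.centralizer (Q : Set G)) f (t : G)) {R : Subgroup T}
    (hQR : Q ≤ R.map T.subtype) {g : Set (IrrCharacter (Subgroup.centralizer (R : Set T)))} :
    IsNormalSubpair p M Q f (R.map T.subtype)
      (blkMap (upIso T R (hT.centralizer_map_le hQR)) g) ↔ IsBrauerPairOf p M F R g := by
  constructor
  · rintro ⟨-, ⟨h1, h2⟩, -, -, -, h6⟩
    refine ⟨⟨?_, isPBlock_blkMap_iff.1 h2⟩, hF, fun ξ hξ => ?_⟩
    · have h3 := h1.comap_of_injective T.subtype (Subgroup.subtype_injective T)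
      rwa [Subgroup.comap_map_eq_self_of_injective (Subgroup.subtype_injective T)] at h3
    · have h7 := h6 (irrMap (upIso T R (hT.centralizer_map_le hQR)) ξ) (irrMap_mem_blkMap.2 hξ)
      rwa [brauerOmega_up hFc] at h7
  · rintro ⟨⟨h1, h2⟩, -, h4⟩
    refine ⟨⟨hQ, hf⟩, ⟨h1.map _, isPBlock_blkMap h2⟩, hQR,
      (Subgroup.map_subtype_le R).trans hT.le_normalizer, fun x hx => ?_, ?_⟩
    · exact (hT.stab x (Subgroup.map_subtype_le R hx)).2
    · rintro _ ⟨ξ, hξ, rfl⟩
      rw [brauerOmega_up hFc]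
      exact h4 ξ hξ

end Up

section Defect

variable [Finite G] {Q P : Subgroup G}
  {f : Set (IrrCharacter (Subgroup.centralizer (Q : Set G)))}
  {e : Set (IrrCharacter (Subgroup.centralizer (P : Set G)))} {T : Subgroup G}

/-- `P ∩ T` is contained in a defect group of the block of `T`. -/
theorem exists_sub_defect (hM : IsPModular p M) (hPe : IsBrauerPair p M P e)
    (hle : SubpairLE p M Q f P e) (hT : IsSub Q f T)
    {F : Set (IrrCharacter T)} (hF : IsPBlock M F)
    (hFc : ∀ t : T, blockCoeff F t =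
      subgroupBlockCoeff (Subgroup.centralizer (Q : Set G)) f (t : G)) :
    ∃ D : Subgroup T, IsDefectGroup p M F D ∧ P.subgroupOf T ≤ D := by
  have hp : M.IsPrime := isPrime_of_isPModular hM
  have hQf := SubpairLE.isBrauerPair hle hPe
  have := Fintype.ofFinite G
  have hmap : (P.subgroupOf T).map T.subtype = P ⊓ T := Subgroup.subgroupOf_map_subtype P T
  have hQR : Q ≤ (P.subgroupOf T).map T.subtype := by
    rw [hmap]; exact le_inf (SubpairLE.le hle) hT.le
  obtain ⟨g, hg, -⟩ := existsUnique_subpairLE hM hPe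
    (Q := (P.subgroupOf T).map T.subtype) (by rw [hmap]; exact inf_le_left)
  have hgb := SubpairLE.isBrauerPair hg hPe
  have hle' := subpairLE_of_subpairLE hM hPe hle hg hQR
  have hnorm := isNormalSubpair_of_subpairLE hM hgb hle'
    (by rw [hmap]; exact inf_le_right.trans hT.le_normalizer)
  have h1 : blkMap (upIso T _ (hT.centralizer_map_le hQR))
      (blkMap (upIso T _ (hT.centralizer_map_le hQR)).symm g) = g :=
    blkMap_blkMap_symm _ g
  rw [← h1] at hnorm
  exact exists_defect_ge hM ((isNormalSubpair_up_iff_sub hQf.1 hQf.2 hT hF hFc hQR).1 hnorm)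

/-- A defect group of the block of the stabilizer contains `Q` and carries a Brauer pair of `G`
normally above `(Q, f)`. -/
theorem exists_pair_of_sub_defect (hM : IsPModular p M) (hQ : IsPGroup p Q) (hf : IsPBlock M f)
    (hT : IsSub Q f T) {F : Set (IrrCharacter T)} (hF : IsPBlock M F)
    (hFc : ∀ t : T, blockCoeff F t =
      subgroupBlockCoeff (Subgroup.centralizer (Q : Set G)) f (t : G))
    {D : Subgroup T} (hD : IsDefectGroup p M F D) :
    Q ≤ D.map T.subtype ∧
      ∃ g : Set (IrrCharacter (Subgroup.centralizer ((D.map T.subtype : Subgroup G) : Set G))),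
        IsNormalSubpair p M Q f (D.map T.subtype) g := by
  have hp : M.IsPrime := isPrime_of_isPModular hM
  have hQn : (Q.subgroupOf T).Normal := hT.normal_subgroupOf
  have hQT : IsPGroup p (Q.subgroupOf T) :=
    hQ.comap_of_injective T.subtype (Subgroup.subtype_injective T)
  have h1 : Q.subgroupOf T ≤ D :=
    (Cfsg.Agent.Lib.Cores.le_pCore hQn hQT).trans (Cfsg.Agent.S0912.result p M hM F hF D hD)
  have h2 : Q ≤ D.map T.subtype := by
    have h3 := Subgroup.map_mono (f := T.subtype) h1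
    rwa [Subgroup.map_subgroupOf_eq_of_le hT.le] at h3
  obtain ⟨g, hg⟩ := exists_pair_of_isDefectGroup hM hF hD
  exact ⟨h2, _, (isNormalSubpair_up_iff_sub hQ hf hT hF hFc h2).2 hg⟩

end Defect

end Cfsg.Agent.H649
end

-- part: H649/CentricBlock
section
/-!
# Blocks of `Q C_G(Q)` for centric pairs (S4693)

* `isNilpotentBlock_of_centric`: if `Z(Q)` is a defect group of `f` then the block of `Q C_G(Q)`
  with the idempotent of `f` is nilpotent;
* `eq_of_stable`: if `Q` is normal in `G` and `f` is `G`-stable then the idempotent of a block `B`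
  of which `(Q, f)` is a Brauer pair is that of `f`.
-/

set_option autoImplicit false
set_option linter.unusedSectionVars false

open Cfsg

namespace Cfsg.Agent.H649

open Cfsg.Agent.H644 Cfsg.Agent.Blocks.Local Cfsg.Agent.H651

universe u

variable {p : ℕ} [Fact p.Prime] {M : Ideal AlgInt} {G : Type u} [Group G]

/-- Elements of `Q C_G(Q)`. -/
theorem exists_mul_of_mem_sup_centralizer {Q : Subgroup G} {x : G}
    (hx : x ∈ Q ⊔ Subgroup.centralizer (Q : Set G)) :
    ∃ q ∈ Q, q⁻¹ * x ∈ Subgroup.centralizer (Q : Set G) := by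
  let K : Subgroup G :=
    { carrier := {x | ∃ q ∈ Q, q⁻¹ * x ∈ Subgroup.centralizer (Q : Set G)}
      one_mem' := ⟨1, one_mem _, by rw [inv_one, one_mul]; exact one_mem _⟩
      mul_mem' := by
        rintro a b ⟨q, hq, h⟩ ⟨r, hr, h'⟩
        refine ⟨q * r, mul_mem hq hr, ?_⟩
        have h1 : r⁻¹ * (q⁻¹ * a) = (q⁻¹ * a) * r⁻¹ :=
          Subgroup.mem_centralizer_iff.1 h r⁻¹ (inv_mem hr)
        have h2 : (q * r)⁻¹ * (a * b) = (q⁻¹ * a) * (r⁻¹ * b) := by
          calc (q * r)⁻¹ * (a * b) = (r⁻¹ * (q⁻¹ * a)) * b := by group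
            _ = (q⁻¹ * a) * (r⁻¹ * b) := by rw [h1]; group
        rw [h2]
        exact mul_mem h h'
      inv_mem' := by
        rintro a ⟨q, hq, h⟩
        refine ⟨q⁻¹, inv_mem hq, ?_⟩
        have h1 : q * (q⁻¹ * a) = (q⁻¹ * a) * q := Subgroup.mem_centralizer_iff.1 h q hq
        have h2 : q⁻¹⁻¹ * a⁻¹ = (q⁻¹ * a)⁻¹ := by
          have h3 : a = q⁻¹ * a * q := by rw [← h1]; group
          calc q⁻¹⁻¹ * a⁻¹ = q * (q⁻¹ * a * q)⁻¹ := by rw [← h3, inv_inv]
            _ = (q⁻¹ * a)⁻¹ := by group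
        rw [h2]
        exact inv_mem h }
  have h1 : Q ⊔ Subgroup.centralizer (Q : Set G) ≤ K := by
    refine sup_le (fun q hq => ⟨q, hq, ?_⟩) (fun c hc => ⟨1, one_mem _, ?_⟩)
    · rw [inv_mul_cancel]; exact one_mem _
    · rw [inv_one, one_mul]; exact hc
  exact h1 hx

/-- `p`-regular elements of `Q C_G(Q)` lie in `C_G(Q)`. -/
theorem mem_centralizer_of_isPRegular [Finite G] {Q : Subgroup G} (hQ : IsPGroup p Q) {x : G}
    (hx : x ∈ Q ⊔ Subgroup.centralizer (Q : Set G)) (hr : IsPRegular p x) :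
    x ∈ Subgroup.centralizer (Q : Set G) := by
  obtain ⟨q, hq, hc⟩ := exists_mul_of_mem_sup_centralizer hx
  have hcom : Commute q (q⁻¹ * x) := Subgroup.mem_centralizer_iff.1 hc q hq
  obtain ⟨k, hk⟩ := hQ ⟨q, hq⟩
  have hk' : q ^ p ^ k = 1 := congrArg Subtype.val hk
  have h1 : x ^ p ^ k = (q⁻¹ * x) ^ p ^ k := by
    have h2 : x = q * (q⁻¹ * x) := by group
    conv_lhs => rw [h2]
    rw [hcom.mul_pow, hk', one_mul]
  have h2 : x ^ p ^ k ∈ Subgroup.centralizer (Q : Set G) := by
    rw [h1]; exact pow_mem hc _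
  have h3 : (orderOf x).Coprime (p ^ k) := by
    refine Nat.Coprime.pow_right k ?_
    exact ((Nat.Prime.coprime_iff_not_dvd Fact.out).2 hr).symm
  obtain ⟨m, hm⟩ := exists_pow_eq_self_of_coprime h3.symm
  rw [← hm]
  exact pow_mem h2 m

section

variable [Finite G] {Q : Subgroup G} {f : Set (IrrCharacter (Subgroup.centralizer (Q : Set G)))}

/-- If `Z(Q)` is a defect group of `f` then the subgroups of the Brauer pairs of the block of
`Q C_G(Q)` over `f` lie in `Q`. -/
theorem map_le_of_centric (hM : IsPModular p M) (hQ : IsPGroup p Q) (hf : IsPBlock M f)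
    (hZ : IsDefectGroup p M f ((Q ⊓ Subgroup.centralizer (Q : Set G)).subgroupOf
      (Subgroup.centralizer (Q : Set G))))
    {F : Set (IrrCharacter ↥(Q ⊔ Subgroup.centralizer (Q : Set G)))} (hF : IsPBlock M F)
    (hFc : ∀ t : ↥(Q ⊔ Subgroup.centralizer (Q : Set G)), blockCoeff F t =
      subgroupBlockCoeff (Subgroup.centralizer (Q : Set G)) f (t : G))
    {R : Subgroup ↥(Q ⊔ Subgroup.centralizer (Q : Set G))}
    {h : Set (IrrCharacter (Subgroup.centralizer
      (R : Set ↥(Q ⊔ Subgroup.centralizer (Q : Set G)))))}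
    (hR : IsBrauerPairOf p M F R h) :
    R.map (Q ⊔ Subgroup.centralizer (Q : Set G)).subtype ≤ Q := by
  have hp : M.IsPrime := isPrime_of_isPModular hM
  have := Fintype.ofFinite G
  have hL : IsSub Q f (Q ⊔ Subgroup.centralizer (Q : Set G)) := isSub_sup Q f hf
  obtain ⟨D, hD, hRD⟩ := exists_defect_ge hM hR
  obtain ⟨hQD, g, hg⟩ := exists_pair_of_sub_defect hM hQ hf hL hF hFc hD
  refine (Subgroup.map_mono hRD).trans ?_
  obtain ⟨E, hE, hDE⟩ := exists_centralizer_defect hM hg.2.1 (subpairLE_of_isNormalSubpair hg)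
  have h1 : Nat.card E = Nat.card (Q ⊓ Subgroup.centralizer (Q : Set G) : Subgroup G) := by
    rw [Cfsg.Agent.S0908.result p M hM f hf E hE, ← card_subgroupOf inf_le_right,
      Cfsg.Agent.S0908.result p M hM f hf _ hZ]
  have h2 : Nat.card (D.map (Q ⊔ Subgroup.centralizer (Q : Set G)).subtype ⊓
      Subgroup.centralizer (Q : Set G) : Subgroup G) ≤
      Nat.card (Q ⊓ Subgroup.centralizer (Q : Set G) : Subgroup G) := by
    rw [← h1, ← card_subgroupOf inf_le_right]
    exact Subgroup.card_le_of_le hDE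
  have h3 : Q ⊓ Subgroup.centralizer (Q : Set G) =
      D.map (Q ⊔ Subgroup.centralizer (Q : Set G)).subtype ⊓
      Subgroup.centralizer (Q : Set G) :=
    Subgroup.eq_of_le_of_card_ge (inf_le_inf_right _ hQD) h2
  intro x hx
  obtain ⟨q, hq, hc⟩ := exists_mul_of_mem_sup_centralizer (Subgroup.map_subtype_le D hx)
  have h4 : q⁻¹ * x ∈ Q ⊓ Subgroup.centralizer (Q : Set G) := by
    rw [h3]
    exact Subgroup.mem_inf.2
      ⟨Subgroup.mul_mem _ (Subgroup.inv_mem _ (hQD hq)) hx, hc⟩
  have h5 := mul_mem hq h4.1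
  rwa [mul_inv_cancel_left] at h5

/-- If `Z(Q)` is a defect group of `f` then the block of `Q C_G(Q)` over `f` is nilpotent. -/
theorem isNilpotentBlock_of_centric (hM : IsPModular p M) (hQ : IsPGroup p Q) (hf : IsPBlock M f)
    (hZ : IsDefectGroup p M f ((Q ⊓ Subgroup.centralizer (Q : Set G)).subgroupOf
      (Subgroup.centralizer (Q : Set G))))
    {F : Set (IrrCharacter ↥(Q ⊔ Subgroup.centralizer (Q : Set G)))} (hF : IsPBlock M F)
    (hFc : ∀ t : ↥(Q ⊔ Subgroup.centralizer (Q : Set G)), blockCoeff F t =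
      subgroupBlockCoeff (Subgroup.centralizer (Q : Set G)) f (t : G)) :
    IsNilpotentBlock p M F := by
  refine ⟨hF, fun R h hR x _ _ hreg => ?_⟩
  have h1 := map_le_of_centric hM hQ hf hZ hF hFc hR
  have hreg' : IsPRegular p (x : G) := by
    rw [IsPRegular, Subgroup.orderOf_coe]
    exact hreg
  have h2 := mem_centralizer_of_isPRegular hQ x.2 hreg'
  rw [Subgroup.mem_centralizer_iff]
  intro r hr
  exact Subtype.ext (Subgroup.mem_centralizer_iff.1 h2 r (h1 ⟨r, hr, rfl⟩))

/-- If `Q` is normal in `G` and `f` is `G`-stable, the idempotent of the block `B` of which `(Q, f)`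
is a Brauer pair is that of `f`. -/
theorem blockCoeff_eq_of_stable (hM : IsPModular p M) {B : Set (IrrCharacter G)}
    (hQf : IsBrauerPairOf p M B Q f)
    (hG : ∀ x : G, x ∈ Subgroup.normalizer (Q : Set G) ∧
      StabilizesBlock (Subgroup.centralizer (Q : Set G)) f x) (g : G) :
    blockCoeff B g = subgroupBlockCoeff (Subgroup.centralizer (Q : Set G)) f g := by
  have hp : M.IsPrime := isPrime_of_isPModular hM
  have hT : IsSub Q f ⊤ := ⟨le_top, le_top, fun y _ => hG y⟩
  obtain ⟨F, hF, hFc⟩ := exists_block_of_isSub hM hQf.1.1 hQf.1.2 hT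
  have h1 : IsPBlock M (blkMap (Subgroup.topEquiv : (⊤ : Subgroup G) ≃* G) F) :=
    isPBlock_blkMap hF
  have h2 : ∀ y : G, blockCoeff (blkMap (Subgroup.topEquiv : (⊤ : Subgroup G) ≃* G) F) y =
      subgroupBlockCoeff (Subgroup.centralizer (Q : Set G)) f y := fun y => by
    rw [blockCoeff_blkMap', hFc]
    rfl
  have h3 : IsBrauerPairOf p M (blkMap (Subgroup.topEquiv : (⊤ : Subgroup G) ≃* G) F) Q f := by
    have h4 := isNormalSubpair_self hM hQf.1
    refine ⟨hQf.1, h1, fun ξ hξ => ?_⟩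
    have h5 := h4.2.2.2.2.2 ξ hξ
    have h6 : blockCoeff (blkMap (Subgroup.topEquiv : (⊤ : Subgroup G) ≃* G) F) =
        subgroupBlockCoeff (Subgroup.centralizer (Q : Set G)) f := funext h2
    rw [h6]
    exact h5
  have h4 : B = blkMap (Subgroup.topEquiv : (⊤ : Subgroup G) ≃* G) F :=
    (existsUnique_isBrauerPairOf hM hQf.1).unique hQf h3
  rw [h4, h2]

end

end Cfsg.Agent.H649
end
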